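import Cfsg.Agent.NilPerm.Numeric
import Cfsg.Agent.Char.Nilpotent
import Cfsg.Agent.Lib.Element

/-!
The order of a nilpotent permutation group, and of a nilpotent group of even permutations.
-/

set_option autoImplicit false
set_option linter.style.haveILetI false

namespace Cfsg.Agent.NilPerm

open Equiv MulAction Nat

variable {α : Type*} [Fintype α] [DecidableEq α]

omit [DecidableEq α] in
/-- A transitive nilpotent permutation group of degree `d` has order dividing `T d`. -/
theorem card_dvd_T (N : Subgroup (Perm α)) [Group.IsNilpotent N] [IsPretransitive N α]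
    [Nonempty α] : Nat.card N ∣ T (Fintype.card α) := by
  classical
  refine (Nat.dvd_iff_prime_pow_dvd_dvd _ _).2 fun p k hp hpk => ?_
  haveI : Fact p.Prime := ⟨hp⟩
  obtain ⟨P⟩ : Nonempty (Sylow p N) := inferInstance
  haveI hPn : (P : Subgroup N).Normal :=
    Sylow.normal_of_normalizerCondition Group.normalizerCondition_of_isNilpotent P
  haveI : Unique (Sylow p N) := Sylow.unique_of_normal P hPn
  have hPp : ∀ a : N, (∃ j, orderOf a = p ^ j) → a ∈ (P : Subgroup N) := by
    rintro a ⟨j, hj⟩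
    obtain ⟨Q, hQ⟩ := (IsPGroup.of_card (n := j) (by rw [Nat.card_zpowers, hj]) :
      IsPGroup p (Subgroup.zpowers a)).exists_le_sylow
    rw [Subsingleton.elim Q P] at hQ
    exact hQ (Subgroup.mem_zpowers a)
  obtain ⟨x⟩ := (inferInstance : Nonempty α)
  have hker : Function.Injective (MulAction.toPermHom (P : Subgroup N) (orbit (P : Subgroup N) x)) := by
    rw [injective_iff_map_eq_one]
    intro u hu
    have hfix : ∀ y ∈ orbit (P : Subgroup N) x, (u : N) • y = y := fun y hy =>
      congrArg Subtype.val (Equiv.congr_fun hu ⟨y, hy⟩)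
    have hall : ∀ y : α, ((u : N) : Perm α) y = y := by
      intro y
      obtain ⟨n, rfl⟩ := exists_smul_eq N x y
      set a := Element.pPart p n with ha
      set c := Element.pComplPart p n with hc
      obtain ⟨h1, h2⟩ := Element.orderOf_pPart hp n (orderOf_pos n).ne'
      have haP : a ∈ (P : Subgroup N) := hPp a ⟨_, h1⟩
      have hnca : n = c * a := by
        rw [← (Element.commute_pPart_pComplPart p n).eq, Element.pPart_mul_pComplPart]
      have hucomm : Commute (u : N) c := by
        refine Char.nilpotent_commute_of_coprime ?_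
        obtain ⟨j, hj⟩ := IsPGroup.iff_orderOf.1 P.2 u
        rw [Subgroup.orderOf_coe, hj, hc, h2]
        exact (Nat.coprime_ordCompl hp (orderOf_pos n).ne').pow_left j
      show (u : N) • (n • x) = n • x
      rw [hnca, smul_smul, ← mul_assoc, hucomm.eq, mul_assoc, mul_smul, mul_smul, mul_smul,
        hfix (a • x) ⟨⟨a, haP⟩, rfl⟩]
    exact Subtype.ext (Subtype.ext (Equiv.ext hall))
  have hdvdP : Nat.card (P : Subgroup N) ∣ (Nat.card (orbit (P : Subgroup N) x))! := by
    rw [← Nat.card_perm]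
    exact Subgroup.card_dvd_of_injective _ hker
  obtain ⟨b, hb⟩ := P.2.card_orbit x
  have horb : Nat.card (orbit (P : Subgroup N) x) ∣ Fintype.card α := by
    have h := (IsBlock.orbit_of_normal (G := N) (N := (P : Subgroup N)) x).ncard_dvd_card
      ⟨x, mem_orbit_self x⟩
    rwa [← Nat.card_coe_set_eq, Nat.card_eq_fintype_card (α := α)] at h
  rw [hb] at horb hdvdP
  set e := (Fintype.card α).factorization p with he
  have hbe : b ≤ e := (hp.pow_dvd_iff_le_factorization Fintype.card_ne_zero).1 horb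
  have hkP : p ^ k ∣ (p ^ e)! :=
    ((P.pow_dvd_card_of_pow_dvd_card hpk).trans hdvdP).trans
      (Nat.factorial_dvd_factorial (Nat.pow_le_pow_right hp.pos hbe))
  have hk : k ≤ vp p e := (hp.pow_dvd_iff_le_factorization (Nat.factorial_ne_zero _)).1 hkP
  refine (pow_dvd_pow p hk).trans ?_
  rcases Nat.eq_zero_or_pos e with h0 | h0
  · simp [h0, vp_zero]
  · exact Finset.dvd_prod_of_mem (fun q => q ^ ((q ^ (Fintype.card α).factorization q)!.factorization q))
      (Finsupp.mem_support_iff.2 h0.ne')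

/-- The restriction of `N` to an invariant set. -/
def proj (N : Subgroup (Perm α)) (q : α → Prop) (hq : ∀ σ ∈ N, ∀ x, q (σ x) ↔ q x) :
    N →* Perm (Subtype q) where
  toFun σ := (σ : Perm α).subtypePerm (fun x => hq σ σ.2 x)
  map_one' := by ext; rfl
  map_mul' σ τ := by ext; rfl

omit [Fintype α] [DecidableEq α] in
theorem proj_apply (N : Subgroup (Perm α)) (q : α → Prop) (hq : ∀ σ ∈ N, ∀ x, q (σ x) ↔ q x)
    (σ : N) (x : Subtype q) : ((proj N q hq σ) x : α) = (σ : Perm α) x := rfl

theorem proj_injective (N : Subgroup (Perm α)) (q : α → Prop) [DecidablePred q]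
    (hq : ∀ σ ∈ N, ∀ x, q (σ x) ↔ q x) :
    Function.Injective
      ((proj N q hq).prod (proj N (fun x => ¬ q x) fun σ hσ x => (hq σ hσ x).not)) := by
  rw [injective_iff_map_eq_one]
  intro σ hσ
  obtain ⟨h1, h2⟩ := Prod.mk.inj hσ
  refine Subtype.ext (Equiv.ext fun x => ?_)
  by_cases hx : q x
  · exact congrArg Subtype.val (Equiv.congr_fun h1 ⟨x, hx⟩)
  · exact congrArg Subtype.val (Equiv.congr_fun h2 ⟨x, hx⟩)

theorem sign_proj (N : Subgroup (Perm α)) (q : α → Prop) [DecidablePred q]
    (hq : ∀ σ ∈ N, ∀ x, q (σ x) ↔ q x) (σ : N) :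
    Perm.sign (σ : Perm α) = Perm.sign (proj N q hq σ) *
      Perm.sign (proj N (fun x => ¬ q x) (fun σ hσ x => (hq σ hσ x).not) σ) := by
  rw [← Perm.sign_subtypeCongr]
  congr 1
  refine Equiv.ext fun x => ?_
  by_cases hx : q x
  · rw [Perm.subtypeCongr.left_apply _ _ hx]; rfl
  · rw [Perm.subtypeCongr.right_apply _ _ hx]; rfl

theorem sign_eq_one_of_pow {σ : Perm α} {k : ℕ} (hk : k % 2 = 1) (h : σ ^ k = 1) :
    Perm.sign σ = 1 := by
  have h1 := congrArg (Perm.sign (α := α)) h
  rw [map_pow, map_one] at h1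
  rcases Int.units_eq_one_or (Perm.sign σ) with h2 | h2
  · exact h2
  · rw [h2, (Nat.odd_iff.2 hk).neg_one_pow] at h1
    exact absurd h1 (by decide)

theorem T_two_pow (k : ℕ) : ∃ j, T (2 ^ k) = 2 ^ j := by
  rcases Nat.eq_zero_or_pos k with rfl | hk
  · exact ⟨0, by simp [T_one]⟩
  · exact ⟨_, T_prime_pow Nat.prime_two hk⟩

theorem T_odd {d : ℕ} (hd : d = 3 ∨ d = 5 ∨ d = 9) : T d % 2 = 1 := by
  rcases hd with rfl | rfl | rfl
  · rw [show (3 : ℕ) = 3 ^ 1 from rfl, T_prime_pow Nat.prime_three one_pos, vp_one Nat.prime_three]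
    norm_num
  · rw [show (5 : ℕ) = 5 ^ 1 from rfl, T_prime_pow Nat.prime_five one_pos, vp_one Nat.prime_five]
    norm_num
  · rw [show (9 : ℕ) = 3 ^ 2 from rfl, T_prime_pow Nat.prime_three two_pos,
      show (2 : ℕ) = 1 + 1 from rfl, vp_succ Nat.prime_three, vp_one Nat.prime_three]
    norm_num

theorem T_pos (d : ℕ) : 0 < T d := by
  unfold T Finsupp.prod
  exact Finset.prod_pos fun p hp =>
    pow_pos (Nat.pos_of_mem_primeFactors (by rwa [Nat.support_factorization] at hp)) _

/-- The bound for nilpotent permutation groups and for nilpotent groups of even permutations. -/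
theorem card_le : ∀ (n : ℕ) (α : Type) [Fintype α] [DecidableEq α] (N : Subgroup (Perm α)),
    Fintype.card α = n → Group.IsNilpotent N →
      Nat.card N ≤ g n ∧ ((∀ σ ∈ N, Perm.sign σ = 1) → Nat.card N ≤ aBound n) := by
  intro n
  induction n using Nat.strong_induction_on with
  | _ n ih =>
  intro α _ _ N hn hnil
  classical
  haveI := hnil
  -- the splitting along an orbit
  have split : ∀ x : α, (∃ y, y ∉ orbit N x) →
      ∃ d m, d + m = n ∧ m < n ∧ d < n ∧ 0 < d ∧
        ∃ (A : Subgroup (Perm {y // y ∈ orbit N x})) (B : Subgroup (Perm {y // y ∉ orbit N x})),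
          Fintype.card {y // y ∈ orbit N x} = d ∧ Fintype.card {y // y ∉ orbit N x} = m ∧
          Group.IsNilpotent A ∧ Group.IsNilpotent B ∧ IsPretransitive A {y // y ∈ orbit N x} ∧
          Nat.card N ≤ Nat.card A * Nat.card B ∧
          (∀ σ ∈ N, σ x ≠ x → ∀ k, σ ^ k = 1 → ∃ a ∈ A, a ≠ 1 ∧ a ^ k = 1) ∧
          ((∀ σ ∈ N, Perm.sign σ = 1) → (∀ a ∈ A, Perm.sign a = 1) → ∀ b ∈ B, Perm.sign b = 1) := by
    rintro x ⟨y, hy⟩
    have hq : ∀ σ ∈ N, ∀ z, σ z ∈ orbit N x ↔ z ∈ orbit N x := by
      intro σ hσ z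
      constructor
      · rintro ⟨τ, hτ⟩
        refine ⟨(⟨σ, hσ⟩ : N)⁻¹ * τ, ?_⟩
        show ((⟨σ, hσ⟩ : N)⁻¹ * τ) • x = z
        rw [mul_smul, show τ • x = (⟨σ, hσ⟩ : N) • z from hτ, inv_smul_smul]
      · rintro ⟨τ, rfl⟩
        exact ⟨(⟨σ, hσ⟩ : N) * τ, mul_smul _ _ _⟩
    set πA := proj N (· ∈ orbit N x) hq with hπA
    set πB := proj N (fun z => ¬ z ∈ orbit N x) (fun σ hσ z => (hq σ hσ z).not) with hπB
    refine ⟨_, _, ?_, ?_, ?_, ?_, πA.range, πB.range, rfl, rfl, ?_, ?_, ?_, ?_, ?_, ?_⟩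
    · rw [Fintype.card_subtype_compl, Nat.add_sub_cancel' (Fintype.card_subtype_le _), hn]
    · rw [← hn]
      exact Fintype.card_subtype_lt (x := x) (not_not_intro (mem_orbit_self x))
    · rw [← hn]
      exact Fintype.card_subtype_lt (x := y) hy
    · exact Fintype.card_pos_iff.2 ⟨⟨x, mem_orbit_self x⟩⟩
    · exact Group.nilpotent_of_surjective _ πA.rangeRestrict_surjective
    · exact Group.nilpotent_of_surjective _ πB.rangeRestrict_surjective
    · refine ⟨fun ⟨u, hu⟩ ⟨w, hw⟩ => ?_⟩
      obtain ⟨a, ha⟩ := hu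
      obtain ⟨b, hb⟩ := hw
      refine ⟨⟨πA (b * a⁻¹), _, rfl⟩, Subtype.ext ?_⟩
      show ((b * a⁻¹ : N) : Perm α) u = w
      rw [← ha, ← hb]
      show (b * a⁻¹) • (a • x) = b • x
      rw [smul_smul, inv_mul_cancel_right]
    · rw [← Nat.card_prod]
      exact Nat.card_le_card_of_injective
        (fun σ : N => ((⟨πA σ, σ, rfl⟩ : πA.range), (⟨πB σ, σ, rfl⟩ : πB.range)))
        fun σ τ h => proj_injective N _ hq (Prod.ext
          (congrArg (Subtype.val ∘ Prod.fst) h) (congrArg (Subtype.val ∘ Prod.snd) h))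
    · intro σ hσ hmv k hk
      refine ⟨πA ⟨σ, hσ⟩, ⟨_, rfl⟩, fun h => hmv ?_, ?_⟩
      · exact congrArg Subtype.val (Equiv.congr_fun h ⟨x, mem_orbit_self x⟩)
      · rw [← map_pow, show (⟨σ, hσ⟩ : N) ^ k = 1 from Subtype.ext hk, map_one]
    · rintro hev hA _ ⟨σ, rfl⟩
      have h := sign_proj N _ hq σ
      rw [hev σ σ.2, hA _ ⟨σ, rfl⟩, one_mul] at h
      exact h.symm
  refine ⟨?_, fun hev => ?_⟩
  · rcases isEmpty_or_nonempty α with he | hne
    · exact (Nat.le_of_dvd one_pos (by
        rw [show 1 = Nat.card (Perm α) by rw [Nat.card_perm]; simp]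
        exact N.card_subgroup_dvd_card)).trans (g_pos n)
    obtain ⟨x⟩ := hne
    by_cases htr : ∀ y, y ∈ orbit N x
    · haveI : Nonempty α := ⟨x⟩
      haveI : IsPretransitive N α := isPretransitive_iff_orbit_eq_univ (a := x) |>.2 (Set.eq_univ_of_forall htr)
      have := Nat.le_of_dvd (T_pos _) (card_dvd_T N)
      exact this.trans (hn ▸ (T_le _).1)
    · push Not at htr
      obtain ⟨d, m, hdm, hm, hd, -, A, B, hA, hB, hAn, hBn, -, hle, -, -⟩ := split x htr
      calc Nat.card N ≤ Nat.card A * Nat.card B := hle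
        _ ≤ g d * g m := Nat.mul_le_mul (ih d hd _ A hA hAn).1 (ih m hm _ B hB hBn).1
        _ ≤ g n := hdm ▸ g_add d m
  · by_cases h2 : IsPGroup 2 N
    · rcases Nat.lt_or_ge n 2 with hlt | hge
      · haveI : Subsingleton (Perm α) := by
          haveI : Subsingleton α := Fintype.card_le_one_iff_subsingleton.1 (by omega)
          infer_instance
        rw [Nat.card_unique]
        exact aBound_pos n
      obtain ⟨k, hk⟩ := IsPGroup.iff_card.1 h2
      haveI : Nontrivial α := Fintype.one_lt_card_iff_nontrivial.1 (by omega)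
      have hdvd : 2 ^ k * 2 ∣ n ! := by
        have hA := Subgroup.card_dvd_of_le (show N ≤ alternatingGroup α from fun σ hσ =>
          Perm.mem_alternatingGroup.2 (hev σ hσ))
        rw [hk] at hA
        have := mul_dvd_mul_right hA 2
        rwa [mul_comm (Nat.card (alternatingGroup α)), Nat.card_eq_fintype_card,
          two_mul_card_alternatingGroup, Fintype.card_perm, hn] at this
      rw [← pow_succ] at hdvd
      have hk' : k + 1 ≤ v n :=
        (Nat.prime_two.pow_dvd_iff_le_factorization (Nat.factorial_ne_zero _)).1 hdvd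
      refine le_trans ?_ (half_g_le_aBound n)
      rw [Nat.le_div_iff_mul_le two_pos, hk, ← pow_succ]
      exact (Nat.pow_le_pow_right two_pos hk').trans (two_pow_le_g n)
    -- an element of odd order moving some point
    obtain ⟨u, hu1, k, hk, huk⟩ : ∃ u : N, u ≠ 1 ∧ ∃ k, k % 2 = 1 ∧ u ^ k = 1 := by
      by_contra! hc
      refine h2 fun w => ?_
      obtain ⟨e, j, hj, he⟩ := Nat.exists_eq_pow_mul_and_not_dvd (orderOf_pos w).ne' 2 (by norm_num)
      refine ⟨e, by_contra fun hne => hc (w ^ 2 ^ e) hne j (by omega) ?_⟩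
      rw [← pow_mul, ← he, pow_orderOf_eq_one]
    obtain ⟨x, hx⟩ : ∃ x, (u : Perm α) x ≠ x := by
      by_contra! hc
      exact hu1 (Subtype.ext (Equiv.ext hc))
    haveI : Nonempty α := ⟨x⟩
    by_cases htr : ∀ y, y ∈ orbit N x
    · haveI : IsPretransitive N α := isPretransitive_iff_orbit_eq_univ (a := x) |>.2 (Set.eq_univ_of_forall htr)
      have hdvd := card_dvd_T N
      rw [hn] at hdvd
      have hnp : ∀ j, n ≠ 2 ^ j := by
        rintro j rfl
        obtain ⟨i, hi⟩ := T_two_pow j
        rw [hi] at hdvd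
        obtain ⟨i', -, hi'⟩ := (Nat.dvd_prime_pow Nat.prime_two).1 hdvd
        exact h2 (IsPGroup.of_card hi')
      have hle := Nat.le_of_dvd (T_pos _) hdvd
      rcases (T_le n).2 hnp with h | h | h | h | h
      · exfalso
        haveI : Subsingleton α := Fintype.card_le_one_iff_subsingleton.1 (by omega)
        exact hx (Subsingleton.elim _ _)
      · have := T_mul_aBound (d := n) (Or.inl h) 0
        simp only [aBound, Nat.zero_le, if_true, mul_one, add_zero] at this
        exact hle.trans (by simpa [aBound] using this)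
      · have := T_mul_aBound (d := n) (Or.inr (Or.inl h)) 0
        simp only [aBound, Nat.zero_le, if_true, mul_one, add_zero] at this
        exact hle.trans (by simpa [aBound] using this)
      · have := T_mul_aBound (d := n) (Or.inr (Or.inr h)) 0
        simp only [aBound, Nat.zero_le, if_true, mul_one, add_zero] at this
        exact hle.trans (by simpa [aBound] using this)
      · exact le_trans ((Nat.le_div_iff_mul_le two_pos).2 (by omega)) (half_g_le_aBound n)
    · push Not at htr
      obtain ⟨d, m, hdm, hm, hd, hd0, A, B, hA, hB, hAn, hBn, hAt, hle, hmv, hsgn⟩ := split x htr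
      haveI := hAn
      haveI := hAt
      haveI : Nonempty {y // y ∈ orbit N x} := ⟨⟨x, mem_orbit_self x⟩⟩
      have hdvd := card_dvd_T A
      rw [hA] at hdvd
      obtain ⟨a, haA, ha1, hak⟩ := hmv u u.2 hx k (congrArg Subtype.val huk)
      have hnp : ∀ j, d ≠ 2 ^ j := by
        rintro j rfl
        obtain ⟨i, hi⟩ := T_two_pow j
        rw [hi] at hdvd
        refine ha1 (orderOf_eq_one_iff.1 ?_)
        refine Nat.eq_one_of_dvd_coprimes ?_ (orderOf_dvd_of_pow_eq_one hak)
          ((Subgroup.orderOf_dvd_natCard A haA).trans hdvd)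
        exact (Nat.prime_two.coprime_iff_not_dvd.2 (by omega)).symm.pow_right i
      have key : (d = 3 ∨ d = 5 ∨ d = 9) → Nat.card N ≤ aBound n := by
        intro hD
        have hAe : ∀ a ∈ A, Perm.sign a = 1 := fun a ha => by
          refine sign_eq_one_of_pow (T_odd hD) ?_
          exact orderOf_dvd_iff_pow_eq_one.1 ((Subgroup.orderOf_dvd_natCard A ha).trans hdvd)
        calc Nat.card N ≤ Nat.card A * Nat.card B := hle
          _ ≤ T d * aBound m :=
            Nat.mul_le_mul (Nat.le_of_dvd (T_pos _) hdvd) ((ih m hm _ B hB hBn).2 (hsgn hev hAe))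
          _ ≤ aBound n := hdm ▸ T_mul_aBound hD m
      rcases (T_le d).2 hnp with h | h | h | h | h
      · exfalso
        haveI : Subsingleton {y // y ∈ orbit N x} := Fintype.card_le_one_iff_subsingleton.1 (by omega)
        exact ha1 (Subsingleton.elim _ _)
      · exact key (Or.inl h)
      · exact key (Or.inr (Or.inl h))
      · exact key (Or.inr (Or.inr h))
      · refine le_trans ((Nat.le_div_iff_mul_le two_pos).2 ?_) (half_g_le_aBound n)
        calc Nat.card N * 2 ≤ (T d * g m) * 2 := Nat.mul_le_mul_right _ (hle.trans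
              (Nat.mul_le_mul (Nat.le_of_dvd (T_pos _) hdvd) (ih m hm _ B hB hBn).1))
          _ = (2 * T d) * g m := by ring
          _ ≤ g d * g m := Nat.mul_le_mul_right _ h
          _ ≤ g n := hdm ▸ g_add d m

end Cfsg.Agent.NilPerm
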