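import Cfsg.Agent.NilPerm.Bound
import Cfsg.Agent.Transfer.Hall

/-!
Largest nilpotent subgroups of symmetric and alternating groups of degree `3` modulo `4`.
-/

set_option autoImplicit false
set_option linter.style.haveILetI false

namespace Cfsg.Agent.NilPerm

open Equiv Nat Subgroup

theorem card_sylow_perm (n : ℕ) (P : Sylow 2 (Perm (Fin n))) : Nat.card P = 2 ^ v n := by
  rw [Sylow.card_eq_multiplicity, Nat.card_perm, Nat.card_fin, v]

theorem fact_card_alternating {n : ℕ} (hn : 2 ≤ n) :
    (Nat.card (alternatingGroup (Fin n))).factorization 2 + 1 = v n := by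
  haveI : Nontrivial (Fin n) := Fin.nontrivial_iff_two_le.2 hn
  have h : 2 * Nat.card (alternatingGroup (Fin n)) = n ! := by
    rw [Nat.card_eq_fintype_card, two_mul_card_alternatingGroup, Fintype.card_perm, Fintype.card_fin]
  rw [v, ← h, Nat.factorization_mul two_ne_zero Nat.card_pos.ne', Finsupp.add_apply,
    Nat.prime_two.factorization_self, add_comm]

theorem map_subtype_facts {n : ℕ} (N : Subgroup (alternatingGroup (Fin n))) :
    Nat.card (N.map (alternatingGroup (Fin n)).subtype) = Nat.card N ∧
    (∀ σ ∈ N.map (alternatingGroup (Fin n)).subtype, Perm.sign σ = 1) ∧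
    (Group.IsNilpotent N → Group.IsNilpotent (N.map (alternatingGroup (Fin n)).subtype)) := by
  refine ⟨card_map_of_injective Subtype.val_injective, ?_, fun h => ?_⟩
  · rintro _ ⟨σ, -, rfl⟩
    exact Perm.mem_alternatingGroup.1 σ.2
  · exact Group.nilpotent_of_surjective
      (N.equivMapOfInjective _ Subtype.val_injective).toMonoidHom (MulEquiv.surjective _)

theorem alternating_card_le {n : ℕ} (N : Subgroup (alternatingGroup (Fin n)))
    (hN : Group.IsNilpotent N) : Nat.card N ≤ aBound n := by
  obtain ⟨h1, h2, h3⟩ := map_subtype_facts N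
  rw [← h1]
  exact (card_le n (Fin n) _ (Fintype.card_fin n) (h3 hN)).2 h2

variable {α : Type*} [Fintype α] [DecidableEq α]

/-- The exponent of two in the centralizer of an element with `k` three-cycles. -/
theorem exists_threeCycle (N : Subgroup (Perm α)) (hN : Group.IsNilpotent N) {e : ℕ}
    (hcard : Nat.card N = 3 * 2 ^ e) (h4 : Fintype.card α % 4 = 3)
    (he : v (Fintype.card α - 3) ≤ e + 1) :
    ∃ z ∈ N, z.IsThreeCycle ∧ N ≤ centralizer {z} := by
  classical
  haveI : Fact (Nat.Prime 3) := ⟨Nat.prime_three⟩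
  obtain ⟨z, hz⟩ := exists_prime_orderOf_dvd_card' (G := N) 3 (hcard ▸ dvd_mul_right 3 _)
  obtain ⟨R, hR⟩ : ∃ R : Sylow 3 N, (R : Subgroup N) = zpowers z := by
    refine ⟨Sylow.ofCard (zpowers z) ?_, rfl⟩
    rw [Nat.card_zpowers, hz, hcard, Nat.factorization_mul (by norm_num) (by positivity),
      Finsupp.add_apply, Nat.prime_three.factorization_self, Nat.prime_two.factorization_pow,
      Finsupp.single_eq_of_ne (by norm_num), add_zero, pow_one]
  obtain ⟨K, hKR, hsup, -, -⟩ := Transfer.exists_nilpotent_decomposition hN R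
  have hcen : ∀ w : N, Commute w z := by
    intro w
    have hle : K ⊔ (R : Subgroup N) ≤ centralizer {z} := by
      refine sup_le (fun x hx => mem_centralizer_singleton_iff.2 ?_) ?_
      · exact (mem_centralizer_iff.1 (hKR hx) z (hR ▸ mem_zpowers z)).symm
      · rw [hR]
        exact zpowers_le.2 (mem_centralizer_singleton_iff.2 rfl)
    rw [hsup] at hle
    exact mem_centralizer_singleton_iff.1 (hle (mem_top w))
  have hzo : orderOf (z : Perm α) = 3 := by rw [Subgroup.orderOf_coe, hz]
  have hle : N ≤ centralizer {(z : Perm α)} := fun w hw =>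
    mem_centralizer_singleton_iff.2 (congrArg Subtype.val (hcen ⟨w, hw⟩).eq)
  obtain ⟨k, hk⟩ := Perm.cycleType_prime_order (by rw [hzo]; exact Nat.prime_three)
  rw [hzo] at hk
  rcases Nat.eq_zero_or_pos k with rfl | hk0
  · exact ⟨z, z.2, hk, hle⟩
  exfalso
  have hsum : (k + 1) * 3 ≤ Fintype.card α := by
    have := Perm.sum_cycleType_le (z : Perm α)
    rwa [hk, Multiset.sum_replicate, smul_eq_mul] at this
  have hdvd : 2 ^ e ∣ (Fintype.card α - (k + 1) * 3)! * 3 ^ (k + 1) * (k + 1)! := by
    have h := card_dvd_of_le hle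
    rw [Perm.nat_card_centralizer, hk, Multiset.sum_replicate, smul_eq_mul,
      Multiset.prod_replicate, Multiset.toFinset_replicate, if_neg (Nat.succ_ne_zero k),
      Finset.prod_singleton, Multiset.count_replicate_self, hcard] at h
    exact dvd_trans (dvd_mul_left _ _) h
  have hne : (Fintype.card α - (k + 1) * 3)! * 3 ^ (k + 1) ≠ 0 := by positivity
  have h1 := (Nat.prime_two.pow_dvd_iff_le_factorization
    (mul_ne_zero hne (Nat.factorial_ne_zero _))).1 hdvd
  rw [Nat.factorization_mul hne (Nat.factorial_ne_zero _), Nat.factorization_mul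
    (Nat.factorial_ne_zero _) (by positivity), Finsupp.add_apply, Finsupp.add_apply,
    Nat.prime_three.factorization_pow, Finsupp.single_eq_of_ne (by norm_num), add_zero] at h1
  have h2 := v_add (Fintype.card α - (k + 1) * 3) (k + 1)
  have h3 : v (Fintype.card α - (k + 1) * 3 + (k + 1)) ≤ v (Fintype.card α - 4) :=
    v_mono (by omega)
  have h4' : v (Fintype.card α - 4) + 2 ≤ v (Fintype.card α - 3) := by
    have := v_succ (Fintype.card α - 4)
    rw [show Fintype.card α - 4 + 1 = Fintype.card α - 3 by omega] at this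
    have := two_le_fact (n := Fintype.card α - 3) (by omega) (by omega)
    omega
  change e ≤ v _ + v _ at h1
  omega

theorem fact_centralizer {z : Perm α} (hz : z.IsThreeCycle) :
    (Nat.card (centralizer {z})).factorization 2 = v (Fintype.card α - 3) := by
  rw [Perm.nat_card_centralizer, show z.cycleType = {3} from hz]
  simp only [Multiset.sum_singleton, Multiset.prod_singleton, Multiset.toFinset_singleton,
    Finset.prod_singleton, Multiset.count_singleton_self, Nat.factorial_one, mul_one]
  rw [Nat.factorization_mul (Nat.factorial_ne_zero _) (by norm_num), Finsupp.add_apply,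
    Nat.prime_three.factorization, Finsupp.single_eq_of_ne (by norm_num), add_zero]
  rfl

theorem fact_centralizer_alternating {z : alternatingGroup α} (hz : (z : Perm α).IsThreeCycle)
    (hn : 5 ≤ Fintype.card α) :
    (Nat.card (centralizer {z})).factorization 2 + 1 = v (Fintype.card α - 3) := by
  classical
  set C : Subgroup (Perm α) := centralizer {(z : Perm α)} with hC
  obtain ⟨a, ha⟩ : ∃ a, a ∉ (z : Perm α).support := by
    by_contra! h
    have := Finset.card_le_card (show Finset.univ ⊆ (z : Perm α).support from fun a _ => h a)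
    rw [hz.card_support, Finset.card_univ] at this
    omega
  obtain ⟨b, hb⟩ : ∃ b, b ∉ insert a (z : Perm α).support := by
    by_contra! h
    have h1 := Finset.card_le_card
      (show Finset.univ ⊆ insert a (z : Perm α).support from fun a _ => h a)
    have h2 := Finset.card_insert_le a (z : Perm α).support
    rw [hz.card_support] at h2
    rw [Finset.card_univ] at h1
    omega
  simp only [Finset.mem_insert, not_or] at hb
  have hswap : Equiv.swap a b ∈ C := by
    refine mem_centralizer_singleton_iff.2 (Perm.Disjoint.commute ?_).eq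
    rw [Perm.disjoint_iff_disjoint_support, Perm.support_swap (Ne.symm hb.1)]
    simp only [Finset.disjoint_insert_left, Finset.disjoint_singleton_left]
    exact ⟨ha, hb.2⟩
  let f : C →* ℤˣ := Perm.sign.comp C.subtype
  have hsurj : Function.Surjective f := by
    intro s
    rcases Int.units_eq_one_or s with rfl | rfl
    · exact ⟨1, map_one f⟩
    · exact ⟨⟨_, hswap⟩, Perm.sign_swap (Ne.symm hb.1)⟩
  have h := f.ker.card_mul_index
  rw [index_ker, Set.range_eq_univ.2 hsurj |> fun h => (MonoidHom.range_eq_top.2 hsurj),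
    card_top, Nat.card_eq_fintype_card (α := ℤˣ), Fintype.card_units_int] at h
  have hker : Nat.card (centralizer {z}) = Nat.card f.ker := Nat.card_congr
    { toFun := fun w => ⟨⟨w.1.1, mem_centralizer_singleton_iff.2
        (congrArg Subtype.val (mem_centralizer_singleton_iff.1 w.2))⟩,
        Perm.mem_alternatingGroup.1 w.1.2⟩
      invFun := fun w => ⟨⟨w.1.1, Perm.mem_alternatingGroup.2 w.2⟩,
        mem_centralizer_singleton_iff.2 (Subtype.ext (mem_centralizer_singleton_iff.1 w.1.2))⟩
      left_inv := fun _ => rfl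
      right_inv := fun _ => rfl }
  rw [← fact_centralizer hz, hker, ← hC, ← h, Nat.factorization_mul Nat.card_pos.ne' two_ne_zero,
    Finsupp.add_apply, Nat.prime_two.factorization_self]

/-- Two such subgroups with conjugate central elements are conjugate. -/
theorem conj_of_threeElem {G : Type*} [Group G] [Finite G] {N₁ N₂ : Subgroup G} {z₁ z₂ h : G}
    {e : ℕ} (hc1 : Nat.card N₁ = 3 * 2 ^ e) (hc2 : Nat.card N₂ = 3 * 2 ^ e) (h2z : z₂ ∈ N₂)
    (h1z : z₁ ∈ N₁) (hz2 : orderOf z₂ = 3) (hN1 : N₁ ≤ centralizer {z₁})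
    (hN2 : N₂ ≤ centralizer {z₂}) (hh : h * z₁ * h⁻¹ = z₂)
    (hC : (Nat.card (centralizer {z₂})).factorization 2 = e) :
    ∃ g : G, N₂ = N₁.map (MulAut.conj g).toMonoidHom := by
  classical
  haveI : Fact (Nat.Prime 2) := ⟨Nat.prime_two⟩
  set C := centralizer ({z₂} : Set G) with hCdef
  set N' := N₁.map (MulAut.conj h).toMonoidHom with hN'
  have hc' : Nat.card N' = 3 * 2 ^ e := by
    rw [hN', card_map_of_injective (MulEquiv.injective _), hc1]
  have hz' : z₂ ∈ N' := ⟨z₁, h1z, hh⟩
  have hN'C : N' ≤ C := by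
    rintro _ ⟨w, hw, rfl⟩
    refine mem_centralizer_singleton_iff.2 ?_
    show h * w * h⁻¹ * z₂ = z₂ * (h * w * h⁻¹)
    have := mem_centralizer_singleton_iff.1 (hN1 hw)
    rw [← hh]
    calc h * w * h⁻¹ * (h * z₁ * h⁻¹) = h * (w * z₁) * h⁻¹ := by group
      _ = h * (z₁ * w) * h⁻¹ := by rw [this]
      _ = _ := by group
  have getR : ∀ N : Subgroup G, Nat.card N = 3 * 2 ^ e → z₂ ∈ N → N ≤ C →
      ∃ R : Sylow 2 C, (R : Subgroup C).map C.subtype ⊔ zpowers z₂ = N := by
    intro N hN hz hNC
    obtain ⟨S, hS⟩ := Sylow.exists_subgroup_card_pow_prime (G := N) 2 (n := e)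
      (hN ▸ dvd_mul_left _ _)
    set Sg := S.map N.subtype with hSg
    have hSgC : Nat.card (Sg.subgroupOf C) = 2 ^ e := by
      rw [Nat.card_congr (subgroupOfEquivOfLe ((map_subtype_le S).trans hNC)).toEquiv,
        card_map_of_injective N.subtype_injective, hS]
    refine ⟨Sylow.ofCard (Sg.subgroupOf C) (by rw [hSgC, hC]), ?_⟩
    rw [Sylow.coe_ofCard, subgroupOf_map_subtype,
      inf_eq_left.2 ((map_subtype_le S).trans hNC)]
    have hle : Sg ⊔ zpowers z₂ ≤ N := sup_le (map_subtype_le S) (zpowers_le.2 hz)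
    refine eq_of_le_of_card_ge hle ?_
    rw [hN]
    refine Nat.le_of_dvd Nat.card_pos (Nat.Coprime.mul_dvd_of_dvd_of_dvd ?_ ?_ ?_)
    · exact Nat.Coprime.pow_right _ (by norm_num)
    · exact (by rw [Nat.card_zpowers, hz2] : Nat.card (zpowers z₂) = 3) ▸
        card_dvd_of_le le_sup_right
    · exact ((card_map_of_injective N.subtype_injective).trans hS : Nat.card Sg = 2 ^ e) ▸
        card_dvd_of_le le_sup_left
  obtain ⟨R', hR'⟩ := getR N' hc' hz' hN'C
  obtain ⟨R₂, hR₂⟩ := getR N₂ hc2 h2z hN2
  obtain ⟨c, rfl⟩ := MulAction.exists_smul_eq C R' R₂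
  refine ⟨(c : G) * h, ?_⟩
  have hmap : N₁.map (MulAut.conj ((c : G) * h)).toMonoidHom =
      N'.map (MulAut.conj (c : G)).toMonoidHom := by
    rw [hN', Subgroup.map_map]
    congr 1
    ext x
    simp [mul_assoc]
  rw [hmap, ← hR₂, ← hR', Subgroup.map_sup, MonoidHom.map_zpowers, Subgroup.map_map]
  congr 1
  · rw [Sylow.coe_subgroup_smul, Subgroup.pointwise_smul_def]
    exact ((Subgroup.map_map _ _ _).trans rfl)
  · congr 1
    show z₂ = (c : G) * z₂ * (c : G)⁻¹
    rw [mem_centralizer_singleton_iff.1 c.2, mul_inv_cancel_right]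

end Cfsg.Agent.NilPerm
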